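import Groth.Agent.Ega4late.H517.DensityP
import Groth.Agent.Ega41.NagZero
import Mathlib.RingTheory.Etale.Kaehler
import Mathlib.RingTheory.Etale.Field
import Mathlib.FieldTheory.IntermediateField.Adjoin.Basic
import Mathlib.FieldTheory.IntermediateField.Adjoin.Algebra

/-!
# The Jacobian density lemma for `k⟦T⟧[X]` over a perfect field
-/

set_option autoImplicit false
universe u

namespace Groth.Agent.Ega4late.H517.Density

open Groth.Agent.Ega4late.H544.Frame Groth.Agent.Ega4late.H544.PolyDer
open Groth.Agent.Ega4late.H517.DensityP Groth.Agent.Ega41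
open scoped TensorProduct

/-- Derivations extend along formally etale algebras. -/
theorem exists_extend {A κ : Type u} [CommRing A] [CommRing κ] [Algebra A κ]
    [Algebra.FormallyEtale A κ] (δ : A →+ κ)
    (hδ : ∀ a b, δ (a * b) = algebraMap A κ a * δ b + algebraMap A κ b * δ a) :
    ∃ Δ : κ →+ κ, (∀ x y, Δ (x * y) = x * Δ y + y * Δ x) ∧
      ∀ a, Δ (algebraMap A κ a) = δ a := by
  let D0 : Derivation ℤ A κ := NagZero.mkInt δ (fun a b => by
    rw [hδ, Algebra.smul_def, Algebra.smul_def])
  let g : κ ⊗[A] Ω[A⁄ℤ] →ₗ[κ] κ := LinearMap.liftBaseChange κ D0.liftKaehlerDifferential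
  let Δ : Derivation ℤ κ κ := (g.comp
    (KaehlerDifferential.tensorKaehlerEquivOfFormallyEtale ℤ A κ).symm.toLinearMap).compDer
      (KaehlerDifferential.D ℤ κ)
  refine ⟨(Δ : κ →+ κ), fun x y => Δ.leibniz x y, fun a => ?_⟩
  change g ((KaehlerDifferential.tensorKaehlerEquivOfFormallyEtale ℤ A κ).symm
    (KaehlerDifferential.D ℤ κ (algebraMap A κ a))) = δ a
  rw [KaehlerDifferential.tensorKaehlerEquivOfFormallyEtale_symm_D_algebraMap]
  change LinearMap.liftBaseChange κ D0.liftKaehlerDifferential (1 ⊗ₜ KaehlerDifferential.D ℤ A a) = δ a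
  rw [LinearMap.liftBaseChange_tmul, one_smul, Derivation.liftKaehlerDifferential_comp_D]
  rfl

theorem exists_descend {C A κ : Type*} [CommRing C] [CommRing A] [CommRing κ] [Algebra A κ]
    (π : C →+* A) (hπ : Function.Surjective π) (δ : C →+ κ)
    (hδ : ∀ a b, δ (a * b) = algebraMap A κ (π a) * δ b + algebraMap A κ (π b) * δ a)
    (h0 : ∀ c, π c = 0 → δ c = 0) :
    ∃ D : A →+ κ, (∀ a b, D (a * b) = algebraMap A κ a * D b + algebraMap A κ b * D a) ∧
      ∀ c, D (π c) = δ c := by
  have key : ∀ c c', π c = π c' → δ c = δ c' := by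
    intro c c' h
    rw [← sub_eq_zero, ← map_sub]
    apply h0
    rw [map_sub, h, sub_self]
  let D : A → κ := fun a => δ (hπ a).choose
  have hD : ∀ c, D (π c) = δ c := fun c => key _ _ (hπ (π c)).choose_spec
  refine ⟨AddMonoidHom.mk' D ?_, ?_, hD⟩
  · intro a b
    obtain ⟨a, rfl⟩ := hπ a
    obtain ⟨b, rfl⟩ := hπ b
    rw [← map_add, hD, hD, hD, map_add]
  · intro a b
    obtain ⟨a, rfl⟩ := hπ a
    obtain ⟨b, rfl⟩ := hπ b
    change D (π a * π b) = algebraMap A κ (π a) * D (π b) + algebraMap A κ (π b) * D (π a)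
    rw [← map_mul, hD, hD, hD, hδ]

section charZero

variable (k : Type u) [Field k] (d m : ℕ) {κ : Type u} [Field κ] [Algebra (PR k d m) κ]

/-- `κ` is a finite extension of the fraction field of the image of `k⟦T⟧`. -/
theorem finiteDimensional (K : Type u) [Field K] [Algebra K κ] [Algebra (PS k d) K]
    (hK : ∀ c : PS k d, algebraMap K κ (algebraMap (PS k d) K c) =
      algebraMap (PR k d m) κ (MvPolynomial.C c))
    (hfrac : ∀ x : κ, ∃ a b : PR k d m, algebraMap _ κ b ≠ 0 ∧ x * algebraMap _ κ b = algebraMap _ κ a)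
    (hint : ∀ f : PR k d m, ((algebraMap (PR k d m) κ).comp MvPolynomial.C).IsIntegralElem
      (algebraMap _ κ f)) : FiniteDimensional K κ := by
  classical
  let S : Set κ := Set.range fun j : Fin m => algebraMap (PR k d m) κ (MvPolynomial.X j)
  have hSfin : S.Finite := Set.finite_range _
  have hSint : ∀ x ∈ S, IsIntegral K x := by
    rintro _ ⟨j, rfl⟩
    obtain ⟨q, hq, hq0⟩ := hint (MvPolynomial.X j)
    refine ⟨q.map (algebraMap (PS k d) K), hq.map _, ?_⟩
    rw [Polynomial.eval₂_map]
    have : (algebraMap K κ).comp (algebraMap (PS k d) K) =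
        (algebraMap (PR k d m) κ).comp MvPolynomial.C := RingHom.ext hK
    rw [this]
    exact hq0
  have hmem : ∀ f : PR k d m, algebraMap (PR k d m) κ f ∈ IntermediateField.adjoin K S := by
    intro f
    induction f using MvPolynomial.induction_on with
    | C a => rw [← hK]; exact IntermediateField.algebraMap_mem _ _
    | add p q hp hq => rw [map_add]; exact add_mem hp hq
    | mul_X p j hp =>
      rw [map_mul]
      exact mul_mem hp (IntermediateField.subset_adjoin K S ⟨j, rfl⟩)
  have htop : IntermediateField.adjoin K S = ⊤ := by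
    rw [eq_top_iff]
    intro x _
    obtain ⟨a, b, hb, hab⟩ := hfrac x
    have : x = algebraMap _ κ a / algebraMap _ κ b := by
      rw [eq_div_iff hb, hab]
    rw [this]
    exact div_mem (hmem a) (hmem b)
  have hfin : FiniteDimensional K (IntermediateField.adjoin K S) := by
    have : Finite S := hSfin
    exact IntermediateField.finiteDimensional_adjoin hSint
  rw [htop] at hfin
  exact LinearEquiv.finiteDimensional (IntermediateField.topEquiv (F := K) (E := κ)).toLinearEquiv

/-- The restriction of a derivation to the kernel in `k⟦T⟧` is a combination of the partial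
derivatives. -/
theorem exists_coeffs [CharZero k] (K : Type u) [Field K] [Algebra K κ] [Algebra (PS k d) K]
    [FiniteDimensional K κ]
    (hfracK : ∀ x : K, ∃ a b : PS k d, algebraMap _ K b ≠ 0 ∧ x * algebraMap _ K b = algebraMap _ K a)
    (δ : PS k d →+ κ)
    (hδ : ∀ a b, δ (a * b) = algebraMap K κ (algebraMap (PS k d) K a) * δ b +
      algebraMap K κ (algebraMap (PS k d) K b) * δ a) :
    ∃ l : Fin d → κ, ∀ a : PS k d, algebraMap (PS k d) K a = 0 →
      δ a = ∑ i, l i * algebraMap K κ (algebraMap (PS k d) K (MvPowerSeries.pderiv k i a)) := by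
  classical
  let b := Module.finBasis K κ
  have hcoord : ∀ j, ∃ l : Fin d → K, ∀ a : PS k d, algebraMap (PS k d) K a = 0 →
      b.coord j (δ a) = ∑ i, l i * algebraMap (PS k d) K (MvPowerSeries.pderiv k i a) := by
    intro j
    refine NagZero.core (K := k) d (κ := K) hfracK ((b.coord j).toAddMonoidHom.comp δ) ?_
    intro x y
    change b.coord j (δ (x * y)) = x • b.coord j (δ y) + y • b.coord j (δ x)
    rw [hδ, map_add, ← Algebra.smul_def, ← Algebra.smul_def, map_smul, map_smul,
      Algebra.smul_def x, Algebra.smul_def y]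
    rfl
  choose l hl using hcoord
  refine ⟨fun i => ∑ j, l j i • b j, fun a ha => ?_⟩
  conv_lhs => rw [← b.sum_repr (δ a)]
  have : ∀ j, b.repr (δ a) j = b.coord j (δ a) := fun j => rfl
  simp only [this, hl _ a ha, Finset.sum_mul]
  rw [Finset.sum_comm]
  refine Finset.sum_congr rfl fun j _ => ?_
  rw [Finset.sum_smul]
  refine Finset.sum_congr rfl fun i _ => ?_
  rw [Algebra.smul_def, Algebra.smul_def, map_mul]
  ring

theorem density_charZero [CharZero k]
    (hfrac : ∀ x : κ, ∃ a b : PR k d m, algebraMap _ κ b ≠ 0 ∧ x * algebraMap _ κ b = algebraMap _ κ a)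
    (hint : ∀ f : PR k d m, ((algebraMap (PR k d m) κ).comp MvPolynomial.C).IsIntegralElem
      (algebraMap _ κ f))
    (δ : PR k d m →+ κ)
    (hδ : ∀ a b, δ (a * b) = algebraMap _ κ a * δ b + algebraMap _ κ b * δ a) :
    ∃ l : Fin d ⊕ Fin m → κ, ∀ f : PR k d m, algebraMap _ κ f = 0 →
      δ f = ∑ i, l i * algebraMap _ κ (der k d m i f) := by
  classical
  let w : PS k d →+* κ := (algebraMap (PR k d m) κ).comp MvPolynomial.C
  let P : Ideal (PS k d) := RingHom.ker w
  haveI : P.IsPrime := RingHom.ker_isPrime _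
  let A := PS k d ⧸ P
  haveI : IsDomain A := Ideal.Quotient.isDomain P
  letI algA : Algebra A κ := (RingHom.kerLift w).toAlgebra
  have hA : ∀ c : PS k d, algebraMap A κ (Ideal.Quotient.mk P c) = w c := fun c => rfl
  have hinj : Function.Injective (algebraMap A κ) := RingHom.kerLift_injective w
  let K := FractionRing A
  letI algK : Algebra K κ := (IsFractionRing.lift (K := K) hinj).toAlgebra
  have hAK : ∀ a : A, algebraMap K κ (algebraMap A K a) = algebraMap A κ a := fun a =>
    IsFractionRing.lift_algebraMap hinj a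
  haveI : IsScalarTower A K κ := IsScalarTower.of_algebraMap_eq fun a => (hAK a).symm
  letI algCK : Algebra (PS k d) K := ((algebraMap A K).comp (Ideal.Quotient.mk P)).toAlgebra
  have hCK : ∀ c : PS k d, algebraMap (PS k d) K c = algebraMap A K (Ideal.Quotient.mk P c) :=
    fun c => rfl
  have hK : ∀ c : PS k d, algebraMap K κ (algebraMap (PS k d) K c) =
      algebraMap (PR k d m) κ (MvPolynomial.C c) := fun c => by rw [hCK, hAK, hA]; rfl
  have hfd : FiniteDimensional K κ := finiteDimensional k d m K hK hfrac hint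
  haveI : CharZero K := by
    have h1 : Function.Injective ((algebraMap (PS k d) K).comp
      (MvPowerSeries.C : k →+* MvPowerSeries (Fin d) k)) := RingHom.injective _
    exact charZero_of_injective_ringHom h1
  have hfracK : ∀ x : K, ∃ a b : PS k d, algebraMap _ K b ≠ 0 ∧
      x * algebraMap _ K b = algebraMap _ K a := by
    intro x
    obtain ⟨a, b, hb, hab⟩ := IsFractionRing.div_surjective (A := A) x
    obtain ⟨a, rfl⟩ := Ideal.Quotient.mk_surjective a
    obtain ⟨b, rfl⟩ := Ideal.Quotient.mk_surjective b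
    have hb' : algebraMap A K (Ideal.Quotient.mk P b) ≠ 0 :=
      IsFractionRing.to_map_ne_zero_of_mem_nonZeroDivisors hb
    refine ⟨a, b, hb', ?_⟩
    rw [hCK, hCK, ← hab, div_mul_cancel₀ _ hb']
  let δC : PS k d →+ κ := δ.comp (MvPolynomial.C : PS k d →+* PR k d m).toAddMonoidHom
  have hδC : ∀ c, δC c = δ (MvPolynomial.C c) := fun c => rfl
  obtain ⟨l, hl⟩ := exists_coeffs k d K hfracK δC (fun a b => by
    rw [hδC, hδC, hδC, map_mul, hδ, hK, hK])
  -- the corrected derivation
  let δ0 : PS k d →+ κ := δC - ∑ i, (AddMonoidHom.mulLeft (l i)).comp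
    (w.toAddMonoidHom.comp ((MvPowerSeries.pderiv k i : PS k d →ₗ[k] PS k d).toAddMonoidHom))
  have hδ0 : ∀ c, δ0 c = δ (MvPolynomial.C c) - ∑ i, l i * w (MvPowerSeries.pderiv k i c) := by
    intro c
    change δC c - (∑ i, (AddMonoidHom.mulLeft (l i)).comp
      (w.toAddMonoidHom.comp ((MvPowerSeries.pderiv k i : PS k d →ₗ[k] PS k d).toAddMonoidHom))) c = _
    rw [AddMonoidHom.finsetSum_apply]
    rfl
  have hδ0l : ∀ a b, δ0 (a * b) = algebraMap A κ (Ideal.Quotient.mk P a) * δ0 b +
      algebraMap A κ (Ideal.Quotient.mk P b) * δ0 a := by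
    intro a b
    rw [hδ0, hδ0, hδ0, map_mul, hδ, hA, hA]
    have h1 : ∑ i, l i * w (MvPowerSeries.pderiv k i (a * b)) =
        w a * ∑ i, l i * w (MvPowerSeries.pderiv k i b) +
          w b * ∑ i, l i * w (MvPowerSeries.pderiv k i a) := by
      rw [Finset.mul_sum, Finset.mul_sum, ← Finset.sum_add_distrib]
      refine Finset.sum_congr rfl fun i _ => ?_
      rw [Derivation.leibniz, smul_eq_mul, smul_eq_mul, map_add, map_mul, map_mul]
      ring
    rw [h1]
    have e1 : algebraMap (PR k d m) κ (MvPolynomial.C a) = w a := rfl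
    have e2 : algebraMap (PR k d m) κ (MvPolynomial.C b) = w b := rfl
    rw [e1, e2]
    ring
  have hδ0z : ∀ c, Ideal.Quotient.mk P c = 0 → δ0 c = 0 := by
    intro c hc
    have h1 := hl c (by rw [hCK, hc, map_zero])
    rw [hδ0, sub_eq_zero]
    refine h1.trans (Finset.sum_congr rfl fun i _ => ?_)
    rw [hK]
    rfl
  obtain ⟨D0, hD0, hD0'⟩ := exists_descend (Ideal.Quotient.mk P) Ideal.Quotient.mk_surjective
    δ0 hδ0l hδ0z
  haveI : Algebra.FormallyEtale A K := Algebra.FormallyEtale.of_isLocalization (nonZeroDivisors A)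
  haveI : Algebra.FormallyEtale K κ := Algebra.FormallyEtale.of_isSeparable K κ
  haveI : Algebra.FormallyEtale A κ := Algebra.FormallyEtale.comp A K κ
  obtain ⟨Δ, hΔ, hΔ'⟩ := exists_extend D0 hD0
  have hΔ0 : Δ 0 = 0 := map_zero Δ
  refine ⟨Sum.elim l (fun j => δ (MvPolynomial.X j) - Δ (algebraMap (PR k d m) κ (MvPolynomial.X j))), ?_⟩
  set c := Sum.elim l (fun j => δ (MvPolynomial.X j) - Δ (algebraMap (PR k d m) κ (MvPolynomial.X j))) with hc
  let E : PR k d m →+ κ := δ - comb k d m c - Δ.comp (algebraMap (PR k d m) κ).toAddMonoidHom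
  have hE : ∀ f, E f = δ f - comb k d m c f - Δ (algebraMap _ κ f) := fun f => rfl
  have hEl : ∀ a b, E (a * b) = algebraMap _ κ a * E b + algebraMap _ κ b * E a := by
    intro a b
    rw [hE, hE, hE, hδ, comb_leibniz, map_mul, hΔ]
    ring
  have hall : ∀ f, f ∈ killed E hEl := by
    intro f
    induction f using MvPolynomial.induction_on with
    | C a =>
      rw [mem_killed, hE, comb_apply, Fintype.sum_sum_type]
      have h1 : ∀ j : Fin m, c (Sum.inr j) * algebraMap _ κ (der k d m (Sum.inr j) (MvPolynomial.C a)) = 0 := by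
        intro j
        rw [der_inr_C, map_zero, mul_zero]
      have h2 : ∀ i : Fin d, c (Sum.inl i) * algebraMap _ κ (der k d m (Sum.inl i) (MvPolynomial.C a)) =
          l i * w (MvPowerSeries.pderiv k i a) := by
        intro i
        rw [der_inl_C]
        rfl
      simp only [h1, h2, Finset.sum_const_zero, add_zero]
      have h3 : Δ (algebraMap (PR k d m) κ (MvPolynomial.C a)) = δ0 a := by
        rw [← hD0', ← hΔ']
        rfl
      rw [h3, hδ0]
      ring
    | add p q hp hq => exact Subring.add_mem _ hp hq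
    | mul_X p j hp =>
      refine Subring.mul_mem _ hp ?_
      rw [mem_killed, hE]
      have h1 : comb k d m c (MvPolynomial.X j) = c (Sum.inr j) := comb_var k d m c (Sum.inr j)
      rw [h1, hc]
      simp only [Sum.elim_inr]
      ring
  intro f hf
  have h1 := hall f
  rw [mem_killed, hE, hf, hΔ0, sub_zero, sub_eq_zero] at h1
  exact h1

end charZero

/-- **Jacobian density lemma** for `k⟦T⟧[X]` over a perfect field. -/
theorem density (k : Type u) [Field k] [PerfectField k] (d m : ℕ)
    {κ : Type u} [Field κ] [Algebra (PR k d m) κ]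
    (hfrac : ∀ x : κ, ∃ a b : PR k d m, algebraMap _ κ b ≠ 0 ∧ x * algebraMap _ κ b = algebraMap _ κ a)
    (hint : ∀ f : PR k d m, ((algebraMap (PR k d m) κ).comp MvPolynomial.C).IsIntegralElem (algebraMap _ κ f))
    (δ : Derivation ℤ (PR k d m) κ) :
    ∃ l : Fin d ⊕ Fin m → κ, ∀ f : PR k d m, algebraMap _ κ f = 0 →
      δ f = ∑ i, l i * algebraMap _ κ (der k d m i f) := by
  have hδ : ∀ a b, (δ : PR k d m →+ κ) (a * b) = algebraMap _ κ a * (δ : PR k d m →+ κ) b +
      algebraMap _ κ b * (δ : PR k d m →+ κ) a := by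
    intro a b
    have := δ.leibniz a b
    rw [Algebra.smul_def, Algebra.smul_def] at this
    exact this
  obtain ⟨p, hp⟩ := CharP.exists k
  rcases CharP.char_is_prime_or_zero k p with h | h
  · haveI : Fact p.Prime := ⟨h⟩
    haveI : PerfectRing k p := PerfectField.toPerfectRing p
    exact ⟨_, fun f _ => density_charP k d m p (δ : PR k d m →+ κ) hδ f⟩
  · subst h
    haveI : CharZero k := CharP.charP_to_charZero k
    exact density_charZero k d m hfrac hint (δ : PR k d m →+ κ) hδ

end Groth.Agent.Ega4late.H517.Density
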