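import Groth.Agent.Ega4late.H544.Frame
import Mathlib.RingTheory.MvPowerSeries.Expand
import Mathlib.FieldTheory.Perfect
import Mathlib.RingTheory.Derivation.Basic

/-!
# Derivations of `k⟦T⟧[X]` over a perfect field of characteristic `p`

Every power series over a perfect field of characteristic `p` is a finite sum `∑ T^a g_a^p` with
`a_i < p`.  Hence a derivation of `k⟦T⟧[X]` into a field is the combination of the partial
derivatives given by its values on the variables.
-/

set_option autoImplicit false
universe u

namespace Groth.Agent.Ega4late.H517.DensityP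

open Groth.Agent.Ega4late.H544.Frame Groth.Agent.Ega4late.H544.PolyDer

section decomp

variable {k : Type*} [Field k] {d : ℕ} (p : ℕ) [Fact p.Prime] [CharP k p] [PerfectRing k p]

/-- The coefficient series of the decomposition into `p`-th powers. -/
noncomputable def root (f : MvPowerSeries (Fin d) k) (a : Fin d → Fin p) :
    MvPowerSeries (Fin d) k :=
  fun e => (frobeniusEquiv k p).symm
    (MvPowerSeries.coeff (p • e + Finsupp.equivFunOnFinite.symm (fun i => (a i : ℕ))) f)

theorem coeff_root (f : MvPowerSeries (Fin d) k) (a : Fin d → Fin p) (e : Fin d →₀ ℕ) :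
    MvPowerSeries.coeff e (root p f a) = (frobeniusEquiv k p).symm
      (MvPowerSeries.coeff (p • e + Finsupp.equivFunOnFinite.symm (fun i => (a i : ℕ))) f) := rfl

theorem coeff_root_pow_smul (f : MvPowerSeries (Fin d) k) (a : Fin d → Fin p) (e : Fin d →₀ ℕ) :
    MvPowerSeries.coeff (p • e) (root p f a ^ p) =
      MvPowerSeries.coeff (p • e + Finsupp.equivFunOnFinite.symm (fun i => (a i : ℕ))) f := by
  have hp : p ≠ 0 := (Fact.out : p.Prime).ne_zero
  rw [← MvPowerSeries.map_frobenius_expand p hp, MvPowerSeries.coeff_map,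
    MvPowerSeries.coeff_expand_smul, coeff_root]
  exact (frobeniusEquiv k p).apply_symm_apply _

theorem coeff_root_pow_of_not_dvd (f : MvPowerSeries (Fin d) k) (a : Fin d → Fin p)
    (n : Fin d →₀ ℕ) (i : Fin d) (h : ¬ p ∣ n i) :
    MvPowerSeries.coeff n (root p f a ^ p) = 0 := by
  have hp : p ≠ 0 := (Fact.out : p.Prime).ne_zero
  rw [← MvPowerSeries.map_frobenius_expand p hp, MvPowerSeries.coeff_map,
    MvPowerSeries.coeff_expand_of_not_dvd p hp _ h, map_zero]

theorem eq_sum (f : MvPowerSeries (Fin d) k) :
    f = ∑ a : Fin d → Fin p,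
      MvPowerSeries.monomial (Finsupp.equivFunOnFinite.symm (fun i => (a i : ℕ))) (1 : k) *
        root p f a ^ p := by
  classical
  have hp : 0 < p := (Fact.out : p.Prime).pos
  ext n
  rw [map_sum, Finset.sum_eq_single (fun i => (⟨n i % p, Nat.mod_lt _ hp⟩ : Fin p))]
  · rw [MvPowerSeries.coeff_monomial_mul, if_pos, one_mul]
    · have h1 : n - Finsupp.equivFunOnFinite.symm (fun i => n i % p) =
          p • Finsupp.equivFunOnFinite.symm (fun i => n i / p) := by
        ext i
        have := Nat.div_add_mod (n i) p
        simp only [Finsupp.coe_tsub, Pi.sub_apply, Finsupp.equivFunOnFinite_symm_apply_apply,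
          Finsupp.smul_apply, smul_eq_mul]
        omega
      change _ = MvPowerSeries.coeff (n - Finsupp.equivFunOnFinite.symm (fun i => n i % p)) _
      rw [h1, coeff_root_pow_smul]
      congr 2
      ext i
      have := Nat.div_add_mod (n i) p
      simp only [Finsupp.coe_add, Pi.add_apply, Finsupp.equivFunOnFinite_symm_apply_apply,
        Finsupp.smul_apply, smul_eq_mul]
      omega
    · intro i
      exact Nat.mod_le _ _
  · intro a _ ha
    rw [MvPowerSeries.coeff_monomial_mul]
    split_ifs with hle
    · obtain ⟨i, hi⟩ : ∃ i, a i ≠ (⟨n i % p, Nat.mod_lt _ hp⟩ : Fin p) := by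
        by_contra h
        push Not at h
        exact ha (funext h)
      rw [coeff_root_pow_of_not_dvd p f a _ i, mul_zero]
      rintro ⟨c, hc⟩
      have hle' : (a i : ℕ) ≤ n i := hle i
      have hc' : n i - (a i : ℕ) = p * c := hc
      apply hi
      ext
      have h2 : n i = p * c + (a i : ℕ) := by omega
      change (a i : ℕ) = n i % p
      rw [h2, Nat.mul_add_mod, Nat.mod_eq_of_lt (a i).2]
    · rfl
  · intro h
    exact absurd (Finset.mem_univ _) h

end decomp

section deriv

variable {A κ : Type*} [CommRing A] [CommRing κ] [Algebra A κ]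

/-- The elements killed by an additive map satisfying the Leibniz rule form a subring. -/
def killed (δ : A →+ κ) (hδ : ∀ a b, δ (a * b) = algebraMap A κ a * δ b + algebraMap A κ b * δ a) :
    Subring A where
  carrier := {x | δ x = 0}
  mul_mem' {a b} ha hb := by
    change δ (a * b) = 0
    change δ a = 0 at ha
    change δ b = 0 at hb
    rw [hδ, ha, hb, mul_zero, mul_zero, add_zero]
  one_mem' := by
    change δ 1 = 0
    have h := hδ 1 1
    rw [map_one, one_mul, one_mul] at h
    exact left_eq_add.mp h
  add_mem' {a b} ha hb := by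
    change δ (a + b) = 0
    change δ a = 0 at ha
    change δ b = 0 at hb
    rw [map_add, ha, hb, add_zero]
  zero_mem' := map_zero δ
  neg_mem' {a} ha := by
    change δ (-a) = 0
    change δ a = 0 at ha
    rw [map_neg, ha, neg_zero]

theorem mem_killed (δ : A →+ κ)
    (hδ : ∀ a b, δ (a * b) = algebraMap A κ a * δ b + algebraMap A κ b * δ a) (x : A) :
    x ∈ killed δ hδ ↔ δ x = 0 := Iff.rfl

theorem map_pow_of_leibniz (δ : A →+ κ)
    (hδ : ∀ a b, δ (a * b) = algebraMap A κ a * δ b + algebraMap A κ b * δ a) (x : A) (n : ℕ) :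
    δ (x ^ n) = n * algebraMap A κ x ^ (n - 1) * δ x := by
  induction n with
  | zero =>
    rw [pow_zero, Nat.cast_zero, zero_mul, zero_mul]
    exact (killed δ hδ).one_mem
  | succ n ih =>
    rw [pow_succ, hδ, ih]
    rcases n with _ | n
    · simp
    · simp only [Nat.add_sub_cancel, map_pow, Nat.cast_add, Nat.cast_one]
      ring

theorem pow_mem_killed (δ : A →+ κ)
    (hδ : ∀ a b, δ (a * b) = algebraMap A κ a * δ b + algebraMap A κ b * δ a)
    (p : ℕ) (hp : (p : κ) = 0) (x : A) : x ^ p ∈ killed δ hδ := by
  rw [mem_killed, map_pow_of_leibniz δ hδ, hp, zero_mul, zero_mul]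

end deriv

section main

variable (k : Type u) [Field k] (d m : ℕ)

/-- The sum of the partial derivatives with given coefficients. -/
noncomputable def comb {κ : Type*} [CommRing κ] [Algebra (PR k d m) κ] (c : Fin d ⊕ Fin m → κ) :
    PR k d m →+ κ where
  toFun f := ∑ l, c l * algebraMap _ κ (der k d m l f)
  map_zero' := by simp
  map_add' a b := by simp [mul_add, Finset.sum_add_distrib]

theorem comb_apply {κ : Type*} [CommRing κ] [Algebra (PR k d m) κ] (c : Fin d ⊕ Fin m → κ)
    (f : PR k d m) : comb k d m c f = ∑ l, c l * algebraMap _ κ (der k d m l f) := rfl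

theorem comb_leibniz {κ : Type*} [CommRing κ] [Algebra (PR k d m) κ] (c : Fin d ⊕ Fin m → κ)
    (a b : PR k d m) : comb k d m c (a * b) =
      algebraMap _ κ a * comb k d m c b + algebraMap _ κ b * comb k d m c a := by
  simp only [comb_apply, Derivation.leibniz, smul_eq_mul, map_add, map_mul,
    mul_add, Finset.sum_add_distrib, Finset.mul_sum]
  congr 1
  · exact Finset.sum_congr rfl fun l _ => by ring
  · exact Finset.sum_congr rfl fun l _ => by ring

theorem comb_var {κ : Type*} [CommRing κ] [Algebra (PR k d m) κ] (c : Fin d ⊕ Fin m → κ)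
    (l : Fin d ⊕ Fin m) : comb k d m c (var k d m l) = c l := by
  classical
  rw [comb_apply, Finset.sum_eq_single l]
  · rw [der_var, if_pos rfl, map_one, mul_one]
  · intro b _ hb
    rw [der_var, if_neg hb, map_zero, mul_zero]
  · intro h; exact absurd (Finset.mem_univ _) h

/-- Over a perfect field of characteristic `p` a derivation of `k⟦T⟧[X]` is determined by its values on
the variables. -/
theorem density_charP (p : ℕ) [Fact p.Prime] [CharP k p] [PerfectRing k p] {κ : Type*} [CommRing κ]
    [Algebra (PR k d m) κ] (δ : PR k d m →+ κ)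
    (hδ : ∀ a b, δ (a * b) = algebraMap _ κ a * δ b + algebraMap _ κ b * δ a) (f : PR k d m) :
    δ f = ∑ i, δ (var k d m i) * algebraMap _ κ (der k d m i f) := by
  have hp : (p : κ) = 0 := by
    have h1 : ((p : ℕ) : PR k d m) = 0 := by
      have : ((p : ℕ) : PR k d m) = MvPolynomial.C (MvPowerSeries.C ((p : ℕ) : k)) := by
        rw [map_natCast, map_natCast]
      rw [this, CharP.cast_eq_zero, map_zero, map_zero]
    have h2 := congrArg (algebraMap (PR k d m) κ) h1
    rwa [map_natCast, map_zero] at h2
  let Δ : PR k d m →+ κ := δ - comb k d m (fun l => δ (var k d m l))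
  have hΔa : ∀ f, Δ f = δ f - comb k d m (fun l => δ (var k d m l)) f := fun f => rfl
  have hΔ : ∀ a b, Δ (a * b) = algebraMap _ κ a * Δ b + algebraMap _ κ b * Δ a := by
    intro a b
    rw [hΔa, hΔa, hΔa, hδ, comb_leibniz]
    ring
  have hvar : ∀ l, var k d m l ∈ killed Δ hΔ := by
    intro l
    rw [mem_killed, hΔa, comb_var, sub_self]
  have hC : ∀ c : PS k d, (MvPolynomial.C c : PR k d m) ∈ killed Δ hΔ := by
    intro c
    rw [eq_sum p c, map_sum]
    refine Subring.sum_mem _ fun a _ => ?_
    rw [map_mul, map_pow]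
    refine Subring.mul_mem _ ?_ (pow_mem_killed Δ hΔ p hp _)
    have h1 : MvPowerSeries.monomial (Finsupp.equivFunOnFinite.symm (fun i => (a i : ℕ))) (1 : k) =
        ∏ i, (MvPowerSeries.X i : PS k d) ^ (a i : ℕ) := by
      rw [MvPowerSeries.monomial_one_eq, Finsupp.prod_fintype]
      · rfl
      · intro i; simp
    rw [h1, map_prod]
    refine Subring.prod_mem _ fun i _ => ?_
    rw [map_pow]
    exact Subring.pow_mem _ (hvar (Sum.inl i)) _
  have hall : f ∈ killed Δ hΔ := by
    induction f using MvPolynomial.induction_on with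
    | C a => exact hC a
    | add p q hp hq => exact Subring.add_mem _ hp hq
    | mul_X p j hp => exact Subring.mul_mem _ hp (hvar (Sum.inr j))
  rw [mem_killed, hΔa, sub_eq_zero] at hall
  exact hall

end main

end Groth.Agent.Ega4late.H517.DensityP
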