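import Mathlib.RingTheory.Smooth.Basic
import Mathlib.RingTheory.MvPolynomial.Ideal
import Mathlib.RingTheory.MvPolynomial.Homogeneous
import Groth.Agent.Ega4late.H516.CanonMap
import Groth.Agent.Ega4late.H518.SymFree

/-!
# Formally smooth algebras are differentially smooth

The canonical surjections `Sym^n(Ω_{B/A}) → I^n/I^(n+1)` are injective when `B` is a formally smooth
`A`-algebra: embed `Ω` as a direct summand in a free module, and lift the first order
development `B → B[X]/(X)²` to `B → B[X]/(X)^(n+1)`.
-/

set_option autoImplicit false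

noncomputable section

open scoped TensorProduct
open PP16

universe u

namespace Groth.Agent.Ega4late.H517.FSmoothDiff

open Groth.Agent.Ega4late.H516 Groth.Agent.Ega4late.H518.SymFree

section algebra

variable {R : Type u} [CommRing R] {κ : Type u}

/-- The linear form attached to a finitely supported family of coefficients. -/
def lin (R κ : Type u) [CommRing R] : (κ →₀ R) →ₗ[R] MvPolynomial κ R :=
  Finsupp.linearCombination R (fun k => (MvPolynomial.X k : MvPolynomial κ R))

theorem lin_mem (f : κ →₀ R) : lin R κ f ∈ MvPolynomial.idealOfVars κ R := by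
  rw [lin, Finsupp.linearCombination_apply, Finsupp.sum]
  refine Ideal.sum_mem _ fun k _ => ?_
  rw [MvPolynomial.smul_eq_C_mul]
  exact Ideal.mul_mem_left _ _ (Ideal.subset_span ⟨k, rfl⟩)

theorem lin_isHomogeneous (f : κ →₀ R) : (lin R κ f).IsHomogeneous 1 := by
  rw [lin, Finsupp.linearCombination_apply, Finsupp.sum]
  refine MvPolynomial.IsHomogeneous.sum _ _ _ fun k _ => ?_
  rw [MvPolynomial.smul_eq_C_mul]
  simpa using (MvPolynomial.isHomogeneous_C κ (f k)).mul (MvPolynomial.isHomogeneous_X R k)

theorem injective_of_basis {S M N κ' : Type u} [Semiring S] [AddCommMonoid M] [Module S M]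
    [AddCommMonoid N] [Module S N] (b : Module.Basis κ' S M) (f : M →ₗ[S] N)
    (h : LinearIndependent S (f ∘ b)) : Function.Injective f := by
  have e : ∀ x : M, f x = Finsupp.linearCombination S (f ∘ b) (b.repr x) := by
    intro x
    conv_lhs => rw [← b.linearCombination_repr x]
    rw [Finsupp.apply_linearCombination]
  intro x y hxy
  rw [e, e] at hxy
  exact b.repr.injective (h hxy)

/-- `Sym^ι` of a free module embeds in the polynomial ring. -/
theorem toAlg_lin_injective {ι : Type u} [Fintype ι] :
    Function.Injective (toAlg (ι := ι) (lin R κ)) := by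
  classical
  apply injective_of_basis (symBasis (ι := ι) (Finsupp.basisSingleOne (R := R) (ι := κ)))
  have h : ((toAlg (ι := ι) (lin R κ)) ∘ (symBasis (ι := ι) (Finsupp.basisSingleOne (R := R) (ι := κ)))) =
      (MvPolynomial.basisMonomials κ R) ∘
        (fun s : Sym κ (Fintype.card ι) => Multiset.toFinsupp (s : Multiset κ)) := by
    funext s
    simp only [Function.comp_apply, symBasis_apply, mono, toAlg_tprod,
      MvPolynomial.coe_basisMonomials, Finsupp.coe_basisSingleOne, lin,
      Finsupp.linearCombination_single, one_smul]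
    rw [prod_X_rep, rep_spec]
  rw [h]
  exact (MvPolynomial.basisMonomials κ R).linearIndependent.comp _
    (Multiset.toFinsupp.injective.comp Sym.coe_injective)

theorem toAlg_lin_isHomogeneous {ι : Type u} [Fintype ι] (z : SymmetricPower R ι (κ →₀ R)) :
    (toAlg (lin R κ) z).IsHomogeneous (Fintype.card ι) := by
  have hz : z ∈ Submodule.span R (Set.range (SymmetricPower.tprod R (ι := ι) (M := κ →₀ R))) := by
    rw [SymmetricPower.span_tprod_eq_top]; trivial
  induction hz using Submodule.span_induction with
  | mem x hx =>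
    obtain ⟨m, rfl⟩ := hx
    rw [toAlg_tprod]
    have := MvPolynomial.IsHomogeneous.prod (Finset.univ : Finset ι) (fun i => lin R κ (m i))
      (fun _ => 1) (fun i _ => lin_isHomogeneous (m i))
    simpa using this
  | zero => rw [map_zero]; exact MvPolynomial.isHomogeneous_zero _ _ _
  | add x y _ _ hx hy => rw [map_add]; exact hx.add hy
  | smul r x _ hx =>
    rw [map_smul, MvPolynomial.smul_eq_C_mul]
    simpa using (MvPolynomial.isHomogeneous_C κ r).mul hx

/-- A homogeneous polynomial of degree `n` in `(X)^(n+1)` vanishes. -/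
theorem eq_zero_of_isHomogeneous_of_mem {n : ℕ} {p : MvPolynomial κ R} (hp : p.IsHomogeneous n)
    (h : p ∈ MvPolynomial.idealOfVars κ R ^ (n + 1)) : p = 0 := by
  rw [MvPolynomial.mem_pow_idealOfVars_iff'] at h
  ext d
  rw [MvPolynomial.coeff_zero]
  by_contra hd
  have h1 := hp hd
  refine hd (h d ?_)
  have h2 : Finsupp.degree d = n := by rw [Finsupp.degree_eq_weight_one (R := ℕ)]; exact h1
  omega

theorem toAlg_comp {M N S : Type u} [AddCommGroup M] [Module R M] [AddCommGroup N] [Module R N]
    [CommRing S] [Algebra R S] {ι : Type u} [Fintype ι] (g : N →ₗ[R] S) (s : M →ₗ[R] N)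
    (z : SymmetricPower R ι M) : toAlg (g ∘ₗ s) z = toAlg g (mapL s z) := by
  have : toAlg (ι := ι) (g ∘ₗ s) = (toAlg g) ∘ₗ (mapL s) := by
    refine hom_ext fun m => ?_
    simp
  exact congrArg (fun f => f z) this

end algebra

section main

variable (A B : Type u) [CommRing A] [CommRing B] [Algebra A B]

/-- First order development along a linear map from the differentials. -/
def firstOrder {S : Type u} [CommRing S] [Algebra A S] [Algebra B S] [IsScalarTower A B S]
    (m : Ideal S) (g : KaehlerDifferential A B →ₗ[B] S) (hg : ∀ x, g x ∈ m) :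
    B →ₐ[A] S ⧸ m ^ 2 where
  toFun b := Ideal.Quotient.mk (m ^ 2) (algebraMap B S b + g (KaehlerDifferential.D A B b))
  map_one' := by simp
  map_mul' b c := by
    rw [← map_mul, Ideal.Quotient.eq, Derivation.leibniz, map_add, map_smul, map_smul, map_mul,
      Algebra.smul_def, Algebra.smul_def]
    have h : algebraMap B S b * algebraMap B S c +
        (algebraMap B S b * g (KaehlerDifferential.D A B c) +
          algebraMap B S c * g (KaehlerDifferential.D A B b)) -
        (algebraMap B S b + g (KaehlerDifferential.D A B b)) *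
          (algebraMap B S c + g (KaehlerDifferential.D A B c)) =
        - (g (KaehlerDifferential.D A B b) * g (KaehlerDifferential.D A B c)) := by ring
    rw [h, pow_two]
    exact neg_mem (Ideal.mul_mem_mul (hg _) (hg _))
  map_zero' := by simp
  map_add' b c := by
    rw [← map_add]
    congr 1
    rw [map_add, map_add, map_add]
    ring
  commutes' a := by
    rw [Derivation.map_algebraMap, map_zero, add_zero, ← IsScalarTower.algebraMap_apply]
    rfl

theorem firstOrder_apply {S : Type u} [CommRing S] [Algebra A S] [Algebra B S]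
    [IsScalarTower A B S] (m : Ideal S) (g : KaehlerDifferential A B →ₗ[B] S)
    (hg : ∀ x, g x ∈ m) (b : B) : firstOrder A B m g hg b =
      Ideal.Quotient.mk (m ^ 2) (algebraMap B S b + g (KaehlerDifferential.D A B b)) := rfl

/-- The lift of the first order development, for a formally smooth algebra and a nilpotent ideal. -/
theorem exists_development [Algebra.FormallySmooth A B] {S : Type u} [CommRing S] [Algebra A S]
    [Algebra B S] [IsScalarTower A B S] (m : Ideal S) (hm : IsNilpotent m)
    (g : KaehlerDifferential A B →ₗ[B] S) (hg : ∀ x, g x ∈ m) :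
    ∃ δ : B →ₐ[A] S, ∀ b, δ b - algebraMap B S b - g (KaehlerDifferential.D A B b) ∈ m ^ 2 := by
  have hm2 : IsNilpotent (m ^ 2) := hm.pow_succ 1
  obtain ⟨δ, hδ⟩ := Algebra.FormallySmooth.exists_lift (m ^ 2) hm2 (firstOrder A B m g hg)
  refine ⟨δ, fun b => ?_⟩
  have h := congrArg (fun f => f b) hδ
  simp only [AlgHom.comp_apply, Ideal.Quotient.mkₐ_eq_mk] at h
  rw [firstOrder_apply, Ideal.Quotient.eq] at h
  have e : δ b - algebraMap B S b - g (KaehlerDifferential.D A B b) =
    δ b - (algebraMap B S b + g (KaehlerDifferential.D A B b)) := by ring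
  rw [e]
  exact h

/-- The `B`-algebra map `B ⊗_A B → S` attached to a development. -/
def tens {S : Type u} [CommRing S] [Algebra A S] [Algebra B S] [IsScalarTower A B S]
    (δ : B →ₐ[A] S) : B ⊗[A] B →ₐ[B] S :=
  Algebra.TensorProduct.lift (Algebra.ofId B S) δ (fun _ _ => Commute.all _ _)

theorem tens_tmul {S : Type u} [CommRing S] [Algebra A S] [Algebra B S] [IsScalarTower A B S]
    (δ : B →ₐ[A] S) (b c : B) : tens A B δ (b ⊗ₜ c) = algebraMap B S b * δ c := by
  rw [tens, Algebra.TensorProduct.lift_tmul]
  rfl

theorem tens_sub {S : Type u} [CommRing S] [Algebra A S] [Algebra B S] [IsScalarTower A B S]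
    (δ : B →ₐ[A] S) (b : B) :
    tens A B δ ((1 : B) ⊗ₜ[A] b - b ⊗ₜ[A] (1 : B)) = δ b - algebraMap B S b := by
  rw [map_sub, tens_tmul, tens_tmul, map_one, map_one, one_mul, mul_one]

theorem tens_mem_pow {S : Type u} [CommRing S] [Algebra A S] [Algebra B S] [IsScalarTower A B S]
    (δ : B →ₐ[A] S) (m : Ideal S) (h : ∀ b, δ b - algebraMap B S b ∈ m) (k : ℕ)
    {x : B ⊗[A] B} (hx : x ∈ KaehlerDifferential.ideal A B ^ k) : tens A B δ x ∈ m ^ k := by
  have h1 : (KaehlerDifferential.ideal A B).map (tens A B δ) ≤ m := by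
    rw [← KaehlerDifferential.span_range_eq_ideal, Ideal.map_span, Ideal.span_le]
    rintro _ ⟨_, ⟨b, rfl⟩, rfl⟩
    rw [tens_sub]
    exact h b
  have h2 := Ideal.pow_right_mono h1 k
  rw [← Ideal.map_pow] at h2
  exact h2 (Ideal.mem_map_of_mem _ hx)

/-- The nilpotent case. -/
theorem toAlg_eq_zero [Algebra.FormallySmooth A B] {S : Type u} [CommRing S] [Algebra A S]
    [Algebra B S] [IsScalarTower A B S] (m : Ideal S) {ι : Type u} [Fintype ι]
    (hm : m ^ (Fintype.card ι + 1) = ⊥)
    (g : KaehlerDifferential A B →ₗ[B] S) (hg : ∀ x, g x ∈ m)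
    (z : SymmetricPower B ι (KaehlerDifferential A B)) (hz : CanonMap.canon A B ι z = 0) :
    toAlg g z = 0 := by
  obtain ⟨δ, hδ⟩ := exists_development A B m ⟨_, hm⟩ g hg
  have hδ' : ∀ b, δ b - algebraMap B S b ∈ m := by
    intro b
    have h1 := Ideal.pow_le_self two_ne_zero (hδ b)
    have h2 := add_mem h1 (hg (KaehlerDifferential.D A B b))
    rwa [sub_add_cancel] at h2
  let Φ : ↥((KaehlerDifferential.ideal A B ^ Fintype.card ι).restrictScalars B) →ₗ[B] S :=
    (tens A B δ).toLinearMap.comp (Submodule.subtype _)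
  have hΦ : (((KaehlerDifferential.ideal A B ^ (Fintype.card ι + 1)).restrictScalars B).comap
      ((KaehlerDifferential.ideal A B ^ Fintype.card ι).restrictScalars B).subtype) ≤
        LinearMap.ker Φ := by
    intro x hx
    rw [LinearMap.mem_ker]
    have h1 := tens_mem_pow A B δ m hδ' (Fintype.card ι + 1) (x := x.1) hx
    rw [hm] at h1
    exact h1
  let Ψ : grI A B (Fintype.card ι) →ₗ[B] S := Submodule.liftQ _ Φ hΦ
  have key : Ψ ∘ₗ CanonMap.canon A B ι = toAlg g := by
    refine SymPow.hom_ext_on_span (fun b => KaehlerDifferential.D A B b)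
      (KaehlerDifferential.span_range_derivation A B) fun b => ?_
    rw [LinearMap.comp_apply, CanonMap.canon_tprod_D, toAlg_tprod]
    change tens A B δ (∏ i, ((1 : B) ⊗ₜ[A] b i - b i ⊗ₜ[A] (1 : B))) = _
    rw [map_prod]
    simp only [tens_sub]
    have h1 := CanonGen.prod_sub_prod_mem m (Finset.univ : Finset ι)
      (fun i => δ (b i) - algebraMap B S (b i)) (fun i => g (KaehlerDifferential.D A B (b i)))
      (fun i _ => hδ' (b i)) (fun i _ => hg _) (fun i _ => hδ (b i))
    rw [Finset.card_univ, hm] at h1
    exact sub_eq_zero.mp h1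
  rw [← key, LinearMap.comp_apply, hz, map_zero]

/-- If `z` is in the kernel of the canonical map, then its image under any linear map to an ideal `m`
of an algebra lies in `m^(n+1)`. -/
theorem toAlg_mem_pow [Algebra.FormallySmooth A B] {S : Type u} [CommRing S] [Algebra A S]
    [Algebra B S] [IsScalarTower A B S] (m : Ideal S) {ι : Type u} [Fintype ι]
    (g : KaehlerDifferential A B →ₗ[B] S) (hg : ∀ x, g x ∈ m)
    (z : SymmetricPower B ι (KaehlerDifferential A B)) (hz : CanonMap.canon A B ι z = 0) :
    toAlg g z ∈ m ^ (Fintype.card ι + 1) := by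
  let q : S →ₐ[B] S ⧸ m ^ (Fintype.card ι + 1) := Ideal.Quotient.mkₐ B _
  have h1 : (m.map (Ideal.Quotient.mk (m ^ (Fintype.card ι + 1)))) ^ (Fintype.card ι + 1) = ⊥ := by
    rw [← Ideal.map_pow, Ideal.map_quotient_self]
  have h2 := toAlg_eq_zero A B (m.map (Ideal.Quotient.mk (m ^ (Fintype.card ι + 1)))) (ι := ι) h1
    (q.toLinearMap ∘ₗ g) (fun x => Ideal.mem_map_of_mem _ (hg x)) z hz
  have h3 : toAlg (ι := ι) (q.toLinearMap ∘ₗ g) = q.toLinearMap ∘ₗ toAlg g := by
    refine hom_ext fun v => ?_
    simp [map_prod]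
  rw [h3] at h2
  exact Ideal.Quotient.eq_zero_iff_mem.mp h2

/-- Injectivity of the canonical map for a formally smooth algebra. -/
theorem canon_injective [Algebra.FormallySmooth A B] (ι : Type u) [Fintype ι] :
    Function.Injective (CanonMap.canon A B ι) := by
  rw [injective_iff_map_eq_zero]
  intro z hz
  obtain ⟨s, hs⟩ := Module.projective_def'.mp
    (Algebra.FormallySmooth.projective_kaehlerDifferential (R := A) (A := B))
  have h1 := toAlg_mem_pow A B (MvPolynomial.idealOfVars (KaehlerDifferential A B) B)
    (lin B (KaehlerDifferential A B) ∘ₗ s) (fun x => lin_mem (s x)) z hz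
  rw [toAlg_comp] at h1
  have h2 := eq_zero_of_isHomogeneous_of_mem (toAlg_lin_isHomogeneous (mapL s z)) h1
  have h3 : mapL s z = 0 := toAlg_lin_injective (h2.trans (map_zero _).symm)
  have h4 : mapL (ι := ι) (Finsupp.linearCombination B id) ∘ₗ mapL s =
      (LinearMap.id : SymmetricPower B ι (KaehlerDifferential A B) →ₗ[B] _) := by
    refine hom_ext fun m => ?_
    simp only [LinearMap.comp_apply, mapL_tprod, LinearMap.id_apply]
    congr 1
    funext i
    exact congrArg (fun g => g (m i)) hs
  have h5 := congrArg (fun f => f z) h4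
  simp only [LinearMap.comp_apply, LinearMap.id_apply, h3, map_zero] at h5
  exact h5.symm

/-- A formally smooth algebra is differentially smooth. -/
theorem isDiffSmooth [Algebra.FormallySmooth A B] : IsDiffSmooth A B :=
  (CanonMap.isDiffSmooth_iff A B).2
    ⟨Algebra.FormallySmooth.projective_kaehlerDifferential, fun ι _ => canon_injective A B ι⟩

end main

end Groth.Agent.Ega4late.H517.FSmoothDiff
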